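import Cfsg.Agent.H93.ZStar
import Cfsg.Agent.H74.CoreGeneration
import Cfsg.Agent.H28.ZStar
import Cfsg.Agent.H51.ExtremelyClosedTwo
import Cfsg.Agent.H19.Cores

/-! Factorisations `C = O(C) H` used for groups with a strongly closed elementary abelian subgroup. -/

set_option autoImplicit false

namespace Cfsg.Agent.H80.A8Type

open Subgroup
open Cfsg.Agent.H74 (oddCoreIn oddCoreIn_le le_normalizer_oddCoreIn odd_card_oddCoreIn le_oddCoreIn)

universe u

variable {G : Type u} [Group G] [Finite G]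

/-- Every element of `C` is the product of an element of `O(C)` and an element of `H`. -/
def Factor (C H : Subgroup G) : Prop := ∀ c ∈ C, ∃ o ∈ oddCoreIn C, o⁻¹ * c ∈ H

theorem Factor.mono {C H H' : Subgroup G} (h : Factor C H) (hle : H ⊓ C ≤ H') : Factor C H' := by
  intro c hc
  obtain ⟨o, ho, hc'⟩ := h c hc
  exact ⟨o, ho, hle ⟨hc', C.mul_mem (C.inv_mem (oddCoreIn_le C ho)) hc⟩⟩

theorem Factor.le_sup {C H : Subgroup G} (h : Factor C H) : C ≤ oddCoreIn C ⊔ H := by
  intro c hc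
  obtain ⟨o, ho, hc'⟩ := h c hc
  rw [show c = o * (o⁻¹ * c) by group]
  exact mul_mem_sup ho hc'

theorem conj_mem_oddCoreIn {C : Subgroup G} {c x : G} (hc : c ∈ C) (hx : x ∈ oddCoreIn C) :
    c * x * c⁻¹ ∈ oddCoreIn C :=
  (mem_normalizer_iff.mp (le_normalizer_oddCoreIn C hc) x).mp hx

/-- An odd-order subgroup of `H`, normalised by `H`, lies in `O(C)` when `C = O(C) H`. -/
theorem le_oddCoreIn_of_factor {C H X : Subgroup G} (h : Factor C H) (hHC : H ≤ C) (hXH : X ≤ H)
    (hHX : H ≤ normalizer (X : Set G)) (hX : Odd (Nat.card X)) : X ≤ oddCoreIn C := by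
  set D := oddCoreIn C with hD
  have hJ : C ≤ normalizer ((D ⊔ X : Subgroup G) : Set G) := by
    intro c hc
    obtain ⟨o, ho, hh⟩ := h c hc
    have h1 : o ∈ normalizer ((D ⊔ X : Subgroup G) : Set G) := le_normalizer (mem_sup_left ho)
    have h2 : o⁻¹ * c ∈ normalizer ((D ⊔ X : Subgroup G) : Set G) := by
      apply Subgroup.mem_normalizer_fintype
      intro y hy
      have : (D ⊔ X).map (MulAut.conj (o⁻¹ * c)).toMonoidHom ≤ D ⊔ X := by
        rw [Subgroup.map_sup]
        refine sup_le_sup ?_ ?_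
        · rintro _ ⟨d, hd, rfl⟩; exact conj_mem_oddCoreIn (hHC hh) hd
        · rintro _ ⟨x, hx, rfl⟩; exact (mem_normalizer_iff.mp (hHX hh) x).mp hx
      exact this ⟨y, hy, rfl⟩
    simpa using mul_mem h1 h2
  have hXC : X ≤ C := hXH.trans hHC
  have hle : D ⊔ X ≤ C := sup_le (oddCoreIn_le C) hXC
  have hodd : Odd (Nat.card (D ⊔ X : Subgroup G)) := by
    have hn : (D.subgroupOf C).Normal :=
      (normal_subgroupOf_iff_le_normalizer (oddCoreIn_le C)).mpr (le_normalizer_oddCoreIn C)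
    have h1 := H19.card_sup_dvd (D.subgroupOf C) (X.subgroupOf C)
    rw [← subgroupOf_sup (oddCoreIn_le C) hXC, Nat.card_congr (subgroupOfEquivOfLe hle).toEquiv,
      Nat.card_congr (subgroupOfEquivOfLe (oddCoreIn_le C)).toEquiv,
      Nat.card_congr (subgroupOfEquivOfLe hXC).toEquiv] at h1
    exact ((odd_card_oddCoreIn C).mul hX).of_dvd_nat h1
  exact le_sup_right.trans (le_oddCoreIn hle hJ hodd)

/-- An involution congruent modulo `O(C)` to an element of odd order lies in `O(C)`, so is `1`. -/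
theorem eq_one_of_congr {C : Subgroup G} {a x : G} (ha : a ∈ C) (hx : x ∈ C) (ha2 : a ^ 2 = 1)
    (hxo : Odd (orderOf x)) (h : a⁻¹ * x ∈ oddCoreIn C) : a = 1 := by
  let K := Cfsg.oddCore ↥C
  haveI : K.Normal := H19.pPrimeCore_normal 2 _
  let q := QuotientGroup.mk' K
  obtain ⟨y, hy, hyx⟩ := h
  have hq : q ⟨a, ha⟩ = q ⟨x, hx⟩ := by
    refine (QuotientGroup.eq).mpr ?_
    have : y = (⟨a, ha⟩ : C)⁻¹ * ⟨x, hx⟩ := Subtype.ext hyx
    exact this ▸ hy
  have h1 : orderOf (q ⟨a, ha⟩) ∣ 2 := orderOf_dvd_of_pow_eq_one (by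
    rw [← map_pow, show (⟨a, ha⟩ : C) ^ 2 = 1 from Subtype.ext ha2, map_one])
  have h2 : orderOf (q ⟨a, ha⟩) ∣ orderOf x := by
    rw [hq, ← Subgroup.orderOf_mk x hx]
    exact orderOf_map_dvd q _
  have h3 : orderOf (q ⟨a, ha⟩) = 1 := Nat.eq_one_of_dvd_coprimes
    (Nat.coprime_two_left.mpr hxo) h1 h2
  have h4 : (⟨a, ha⟩ : C) ∈ K := (QuotientGroup.eq_one_iff _).mp (orderOf_eq_one_iff.mp h3)
  have h5 : a ∈ oddCoreIn C := ⟨_, h4, rfl⟩
  have h6 : Odd (orderOf a) := H74.odd_orderOf_of_mem (odd_card_oddCoreIn C) h5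
  exact orderOf_eq_one_iff.mp (Nat.eq_one_of_dvd_coprimes (Nat.coprime_two_left.mpr h6)
    (orderOf_dvd_of_pow_eq_one ha2) dvd_rfl)

theorem odd_card_map_conj {X : Subgroup G} (g : G) :
    Nat.card (X.map (MulAut.conj g).toMonoidHom) = Nat.card X := H93.card_map_conj X g

theorem map_conj_centralizer (g a : G) :
    (centralizer ({a} : Set G)).map (MulAut.conj g).toMonoidHom =
      centralizer ({g * a * g⁻¹} : Set G) := by
  ext x
  rw [H93.mem_map_conj, mem_centralizer_singleton_iff, mem_centralizer_singleton_iff]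
  constructor
  · intro h
    calc x * (g * a * g⁻¹) = g * ((g⁻¹ * x * g) * a) * g⁻¹ := by group
      _ = g * (a * (g⁻¹ * x * g)) * g⁻¹ := by rw [h]
      _ = g * a * g⁻¹ * x := by group
  · intro h
    calc g⁻¹ * x * g * a = g⁻¹ * (x * (g * a * g⁻¹)) * g := by group
      _ = g⁻¹ * (g * a * g⁻¹ * x) * g := by rw [h]
      _ = a * (g⁻¹ * x * g) := by group

theorem conj_mem_oddCoreIn_centralizer {g a o : G}
    (ho : o ∈ oddCoreIn (centralizer ({a} : Set G))) :
    g * o * g⁻¹ ∈ oddCoreIn (centralizer ({g * a * g⁻¹} : Set G)) := by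
  rw [← map_conj_centralizer g a]
  refine le_oddCoreIn (map_mono (oddCoreIn_le _)) (H93.map_conj_le_normalizer (le_normalizer_oddCoreIn _))
    ?_ ⟨o, ho, rfl⟩
  rw [odd_card_map_conj]
  exact odd_card_oddCoreIn _

theorem Factor.conj {a : G} {N : Subgroup G} (h : Factor (centralizer ({a} : Set G)) N) {g : G}
    (hg : g ∈ N) : Factor (centralizer ({g * a * g⁻¹} : Set G)) N := by
  intro c hc
  rw [← map_conj_centralizer] at hc
  obtain ⟨c, hc, rfl⟩ := hc
  obtain ⟨o, ho, hn⟩ := h c hc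
  refine ⟨g * o * g⁻¹, conj_mem_oddCoreIn_centralizer ho, ?_⟩
  have := mul_mem (mul_mem hg hn) (inv_mem hg)
  simpa [mul_assoc] using this

/-- `Z*`: an involution of a Sylow `2`-subgroup of `C` isolated in it is central modulo `O(C)`. -/
theorem factor_centralizer_of_isolated {C : Subgroup G} (T : Sylow 2 C) {z : G} (hz : orderOf z = 2)
    (hzC : z ∈ C) (hzT : (⟨z, hzC⟩ : C) ∈ T)
    (hiso : ∀ g : C, g * ⟨z, hzC⟩ * g⁻¹ ∈ T → (g : G) * z * (g : G)⁻¹ = z) :
    Factor C (centralizer ({z} : Set G)) := by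
  intro c hc
  let zC : C := ⟨z, hzC⟩
  have hzo : orderOf zC = 2 := by rw [← Subgroup.orderOf_coe]; exact hz
  have hiso' : H28.IsIsolatedInvolution zC :=
    H28.isIsolatedInvolution_of_sylow T hzo fun g hg => Subtype.ext (hiso g hg)
  haveI : (Cfsg.pPrimeCore 2 C).Normal := H19.pPrimeCore_normal 2 _
  have hmod : (⟨c, hc⟩ : C) * zC * (⟨c, hc⟩ : C)⁻¹ * zC⁻¹ ∈ Cfsg.pPrimeCore 2 C := by
    have := inv_mem (H28.zStar hiso' ⟨c, hc⟩)
    simpa [mul_assoc] using this
  have hp : IsPGroup 2 (zpowers zC) := T.isPGroup'.to_le (zpowers_le.mpr hzT)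
  obtain ⟨m, hm, -, hme⟩ := H93.exists_conj_of_congr (N := Cfsg.pPrimeCore 2 C) (A := ⊥)
    H93.odd_card_oddCore hp (by simp [mem_centralizer_iff]) (by simp [mem_centralizer_iff]) hmod
  refine ⟨m, ⟨m, hm, rfl⟩, ?_⟩
  have hme' : (m : G) * z * (m : G)⁻¹ = c * z * c⁻¹ := congrArg Subtype.val hme
  rw [mem_centralizer_singleton_iff]
  calc (m : G)⁻¹ * c * z = (m : G)⁻¹ * (c * z * c⁻¹) * c := by group
    _ = (m : G)⁻¹ * ((m : G) * z * (m : G)⁻¹) * c := by rw [hme']
    _ = z * ((m : G)⁻¹ * c) := by group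

/-- The odd core of the quotient by a central `2`-subgroup. -/
theorem oddCore_quotient_le {C : Type u} [Group C] [Finite C] (U : Subgroup C) [U.Normal]
    (hU : IsPGroup 2 U) (hUc : U ≤ center C) :
    Cfsg.oddCore (C ⧸ U) ≤ (Cfsg.oddCore C).map (QuotientGroup.mk' U) := by
  haveI := Fact.mk Nat.prime_two
  set f := QuotientGroup.mk' U
  haveI := H19.pPrimeCore_normal 2 (C ⧸ U)
  set M := (Cfsg.oddCore (C ⧸ U)).comap f with hMdef
  have hUM : U ≤ M := fun z hz => by
    rw [hMdef, mem_comap, show f z = 1 from (QuotientGroup.eq_one_iff z).mpr hz]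
    exact one_mem _
  have hidx : ¬ 2 ∣ (U.subgroupOf M).index := by
    have e : (U.subgroupOf M).index = Nat.card (Cfsg.oddCore (C ⧸ U)) := by
      rw [← Subgroup.relIndex, ← relIndex_bot_left (Cfsg.oddCore (C ⧸ U))]
      have hb : (⊥ : Subgroup (C ⧸ U)).comap f = U := by
        rw [MonoidHom.comap_bot, QuotientGroup.ker_mk']
      conv_lhs => rw [← hb, relIndex_comap, hMdef,
        map_comap_eq_self_of_surjective (QuotientGroup.mk'_surjective U)]
    rw [e]
    exact fun h => (Nat.not_even_iff_odd.mpr H93.odd_card_oddCore) (even_iff_two_dvd.mpr h)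
  let P : Sylow 2 M := (hU.comap_subtype (K := M)).toSylow hidx
  have hP : normalizer ((P : Subgroup M) : Set M) ≤ centralizer ((P : Subgroup M) : Set M) := by
    intro x _
    rw [mem_centralizer_iff]
    intro y hy
    exact Subtype.ext (mem_center_iff.mp (hUc hy) x).symm
  set T := (MonoidHom.transferSylow P hP).ker
  haveI : M.Normal := (inferInstance : (Cfsg.oddCore (C ⧸ U)).Normal).comap f
  have hT : T.map M.subtype ≤ Cfsg.oddCore C := by
    refine (map_mono (H51.le_pPrimeCore inferInstance ?_)).trans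
      (H51.pPrimeCore_map_subtype_le 2)
    exact (Nat.prime_two.coprime_iff_not_dvd.mpr
      (MonoidHom.not_dvd_card_ker_transferSylow P hP)).symm
  intro y hy
  obtain ⟨x, rfl⟩ := QuotientGroup.mk'_surjective U y
  have h1 := (MonoidHom.ker_transferSylow_isComplement' P hP).sup_eq_top
  have h2 : (⟨x, hy⟩ : M) ∈ T ⊔ (P : Subgroup M) := h1 ▸ mem_top _
  have h3 := mem_map_of_mem M.subtype h2
  rw [Subgroup.map_sup] at h3
  have h4 : (f x) ∈ (T.map M.subtype ⊔ (P : Subgroup M).map M.subtype).map f := ⟨x, h3, rfl⟩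
  rw [Subgroup.map_sup] at h4
  refine (sup_le (map_mono hT) ?_) h4
  rintro _ ⟨_, ⟨z, hz, rfl⟩, rfl⟩
  rw [show f (M.subtype z) = 1 from (QuotientGroup.eq_one_iff _).mpr hz]
  exact one_mem _

end Cfsg.Agent.H80.A8Type
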