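import Cfsg.Agent.H80.A8Type.Data
import Cfsg.Agent.H80.A8Type.Basic
import Cfsg.Agent.H30.Basics

/-! The action of `A₅` on `A`, and conjugacy of the involutions of `S` outside `A`. -/

set_option autoImplicit false

namespace Cfsg.Agent.H80.A8Type

open Subgroup

universe u

variable {G : Type u} [Group G] [Finite G]

namespace Data

variable (d : Data G)

theorem mem_normalizer {x : G} (hx : x ∈ d.N) : x ∈ normalizer (d.A : Set G) := d.N_eq ▸ hx

theorem A_le_N : d.A ≤ d.N := d.A_le.trans d.S_le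

theorem conj_mem {x a : G} (hx : x ∈ d.N) (ha : a ∈ d.A) : x * a * x⁻¹ ∈ d.A :=
  (mem_normalizer_iff.mp (d.mem_normalizer hx) a).mp ha

theorem comm {a b : G} (ha : a ∈ d.A) (hb : b ∈ d.A) : a * b = b * a :=
  haveI := d.elem.1; setLike_mul_comm ha hb

theorem sq {a : G} (ha : a ∈ d.A) : a * a = 1 := by
  have := d.elem.2 a ha
  rwa [pow_two] at this

theorem mem_A_of_π {s : ↥d.N} (hs : (s : G) ∈ (d.S : Subgroup G)) (h : d.π s = 1) :
    (s : G) ∈ d.A := by
  haveI := Fact.mk Nat.prime_two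
  have h1 := d.ker_le s h
  rw [← SetLike.mem_coe, coe_mul_of_left_le_normalizer_right d.A _
    (d.A_le_N.trans (H74.le_normalizer_oddCoreIn _))] at h1
  obtain ⟨a, ha, o, ho, hao⟩ := h1
  have ho1 : o = 1 := by
    refine H93.eq_one_of_two_odd d.S.isPGroup' (H74.odd_card_oddCoreIn d.N) ?_ ho
    have := mul_mem (inv_mem (d.A_le ha)) hs
    change a * o = s at hao
    rwa [← hao, inv_mul_cancel_left] at this
  change a * o = s at hao
  rw [← hao, ho1, mul_one]
  exact ha

theorem π_eq_one_of_mem {x : ↥d.N} (hx : (x : G) ∈ d.A) : d.π x = 1 := d.le_ker x (mem_sup_left hx)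

/-- A chosen preimage in `N`. -/
noncomputable def lift (g : A5) : ↥d.N := Classical.choose (d.π_surj g)

theorem π_lift (g : A5) : d.π (d.lift g) = g := Classical.choose_spec (d.π_surj g)

/-- The action of `A₅` on `A`. -/
noncomputable def act (g : A5) (a : G) : G := (d.lift g : G) * a * ((d.lift g : G))⁻¹

theorem conj_eq_act (x : ↥d.N) {a : G} (ha : a ∈ d.A) : (x : G) * a * (x : G)⁻¹ = d.act (d.π x) a := by
  have h : d.π ((d.lift (d.π x))⁻¹ * x) = 1 := by rw [map_mul, map_inv, π_lift, inv_mul_cancel]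
  have hc := mem_centralizer_iff.mp ((d.cent _).mpr h) a ha
  rw [Subgroup.coe_mul, Subgroup.coe_inv] at hc
  rw [act]
  calc (x : G) * a * (x : G)⁻¹
      = (d.lift (d.π x) : G) * ((((d.lift (d.π x) : ↥d.N) : G))⁻¹ * x * a) * (x : G)⁻¹ := by group
    _ = (d.lift (d.π x) : G) * (a * ((((d.lift (d.π x) : ↥d.N) : G))⁻¹ * x)) * (x : G)⁻¹ := by rw [hc]
    _ = _ := by group

theorem act_mem (g : A5) {a : G} (ha : a ∈ d.A) : d.act g a ∈ d.A := d.conj_mem (d.lift g).2 ha

theorem act_mul (g : A5) (a b : G) : d.act g (a * b) = d.act g a * d.act g b := by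
  simp [act, mul_assoc]

theorem act_one (g : A5) : d.act g 1 = 1 := by simp [act]

theorem act_comp (g h : A5) {a : G} (ha : a ∈ d.A) : d.act g (d.act h a) = d.act (g * h) a := by
  have := d.conj_eq_act (d.lift g * d.lift h) ha
  rw [map_mul, π_lift, π_lift, Subgroup.coe_mul] at this
  rw [← this, act, act]
  group

theorem act_id {a : G} (ha : a ∈ d.A) : d.act 1 a = a := by
  have := d.conj_eq_act 1 ha
  rw [map_one] at this
  rw [← this]
  simp

theorem act_eq_one {g : A5} {a : G} (h : d.act g a = 1) : a = 1 := conj_eq_one_iff.mp h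

theorem act_injective (g : A5) {a b : G} (h : d.act g a = d.act g b) : a = b := by
  simpa [act] using h

/-- No element of `A` other than `1` is fixed by `A₅`. -/
theorem no_fixed {a : G} (ha : a ∈ d.A) (ha1 : a ≠ 1) : ∃ g, d.act g a ≠ a := by
  by_contra hno
  push Not at hno
  haveI := Fact.mk (show Nat.Prime 5 by norm_num)
  let P : Sylow 5 ↥d.N := default
  let f : ↥(P : Subgroup ↥d.N) →* MulAut d.A :=
    (d.A.normalizerMonoidHom).comp ((Subgroup.inclusion d.N_eq.le).comp (P : Subgroup ↥d.N).subtype)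
  letI : MulAction ↥(P : Subgroup ↥d.N) d.A :=
    MulAction.compHom d.A (f : ↥(P : Subgroup ↥d.N) →* MulAut d.A)
  have hsm : ∀ (p : ↥(P : Subgroup ↥d.N)) (x : d.A),
      ((p • x : d.A) : G) = d.act (d.π (p : ↥d.N)) x := fun p x => by
    rw [← d.conj_eq_act _ x.2]; rfl
  have h := P.isPGroup'.card_modEq_card_fixedPoints d.A
  let F : Subgroup G :=
    { carrier := {x | x ∈ d.A ∧ ∀ p : ↥(P : Subgroup ↥d.N), d.act (d.π (p : ↥d.N)) x = x}
      mul_mem' := fun {x y} hx hy => ⟨mul_mem hx.1 hy.1, fun p => by rw [d.act_mul, hx.2 p, hy.2 p]⟩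
      one_mem' := ⟨one_mem _, fun p => d.act_one _⟩
      inv_mem' := fun {x} hx => by
        have : x⁻¹ = x := inv_eq_of_mul_eq_one_right (d.sq hx.1)
        rw [this]; exact hx }
  have hF : Nat.card ↑(MulAction.fixedPoints ↥(P : Subgroup ↥d.N) d.A) = Nat.card F := by
    refine Nat.card_congr ⟨fun x => ⟨x.1.1, x.1.2, fun p => ?_⟩, fun x => ⟨⟨x.1, x.2.1⟩, fun p => ?_⟩,
      fun x => rfl, fun x => rfl⟩
    · rw [← hsm p x.1, x.2 p]
    · exact Subtype.ext ((hsm p _).trans (x.2.2 p))
  rw [hF, d.card_A] at h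
  have hdvd : Nat.card F ∣ 2 ^ 4 := by
    rw [show 2 ^ 4 = 16 from rfl, ← d.card_A]
    exact card_dvd_of_le fun x hx => hx.1
  have hne : Nat.card F ≠ 1 := fun h1 =>
    ha1 (mem_bot.mp (eq_bot_of_card_eq F h1 ▸ (⟨ha, fun p => hno _⟩ : a ∈ F)))
  have h16 : Nat.card F = 16 := by
    obtain ⟨k, hk, hk'⟩ := (Nat.dvd_prime_pow Nat.prime_two).mp hdvd
    interval_cases k <;> simp_all [Nat.ModEq]
  have hAF : d.A ≤ F := (Subgroup.eq_of_le_of_card_ge (fun x hx => hx.1)
    (by rw [h16, d.card_A]) : F = d.A).ge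
  have hall : ∀ p : ↥(P : Subgroup ↥d.N), d.π (p : ↥d.N) = 1 := fun p => by
    refine (d.cent _).mp (mem_centralizer_iff.mpr fun x hx => ?_)
    have := (hAF hx).2 p
    rw [← d.conj_eq_act _ hx] at this
    exact (mul_inv_eq_iff_eq_mul.mp this).symm
  let Q := P.mapSurjective d.π_surj
  have hQ : (Q : Subgroup A5) = ⊥ := by
    rw [eq_bot_iff]
    rintro _ ⟨p, hp, rfl⟩
    exact mem_bot.mpr (hall ⟨p, hp⟩)
  have h5 := Q.dvd_card_of_dvd_card (by rw [nat_card_alternatingGroup, Nat.card_fin]; norm_num [Nat.factorial])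
  rw [hQ, Subgroup.card_bot] at h5
  norm_num at h5

/-- An element of `A` fixed by `V` and a conjugate of `V` is `1`. -/
theorem eq_one_of_two_fours {a : G} (ha : a ∈ d.A) {g : A5} (hg : (g : Equiv.Perm (Fin 5)) 4 ≠ 4)
    (hV : ∀ v ∈ Vset, d.act v a = a) (hgV : ∀ v ∈ Vset, d.act (g * v * g⁻¹) a = a) : a = 1 := by
  by_contra ha1
  obtain ⟨x, hx⟩ := d.no_fixed ha ha1
  let H : Subgroup A5 :=
    { carrier := {x | d.act x a = a}
      mul_mem' := fun {x y} (hx : d.act x a = a) (hy : d.act y a = a) => by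
        show d.act (x * y) a = a
        rw [← d.act_comp x y ha, hy, hx]
      one_mem' := d.act_id ha
      inv_mem' := fun {x} (hx : d.act x a = a) => by
        show d.act x⁻¹ a = a
        conv_lhs => rw [← hx]
        rw [d.act_comp _ _ ha, inv_mul_cancel, d.act_id ha] }
  set i := (g : Equiv.Perm (Fin 5)) 4 with hi
  obtain ⟨v, hv, w, hw, h5, hne⟩ := five_mem i hg
  have hstab : ((g⁻¹ * movers i : A5) : Equiv.Perm (Fin 5)) 4 = 4 := by
    rw [Subgroup.coe_mul, Equiv.Perm.mul_apply, movers_apply, hi, Subgroup.coe_inv]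
    exact Equiv.symm_apply_apply _ _
  have hwH : movers i * w * (movers i)⁻¹ ∈ H := by
    have h1 : ((g⁻¹ * movers i)⁻¹ : A5).1 4 = 4 := by
      rw [Subgroup.coe_inv, Equiv.Perm.inv_eq_iff_eq, hstab]
    have h2 := hgV _ (stab_normalises _ h1 w hw)
    show d.act _ a = a
    convert h2 using 2
    group
  have hm : v * (movers i * w * (movers i)⁻¹) ∈ H := H.mul_mem (hV v hv) hwH
  have h5o : orderOf (v * (movers i * w * (movers i)⁻¹)) = 5 :=
    haveI := Fact.mk (show Nat.Prime 5 by norm_num)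
    orderOf_eq_prime h5 hne
  have d5 : 5 ∣ Nat.card H := by
    have h5' := orderOf_dvd_natCard (⟨_, hm⟩ : H)
    rwa [Subgroup.orderOf_mk, h5o] at h5'
  have d4 : 4 ∣ Nat.card H := card_Vgrp ▸ card_dvd_of_le (fun v hv => hV v hv)
  have d20 : 20 ∣ Nat.card H := Nat.Coprime.mul_dvd_of_dvd_of_dvd (by norm_num : Nat.Coprime 4 5) d4 d5
  refine hx ?_
  suffices H = ⊤ from (this ▸ mem_top x : x ∈ H)
  by_contra hH
  have hcard : Nat.card A5 = 60 := by
    rw [nat_card_alternatingGroup, Nat.card_fin]; norm_num [Nat.factorial]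
  haveI : IsSimpleGroup A5 := alternatingGroup.isSimpleGroup (by simp)
  have h := H30.two_mul_card_dvd_factorial
    (H30.not_comm_of_not_prime (by rw [hcard]; norm_num)) H hH
  have hidx := H.card_mul_index
  rw [hcard] at h hidx
  obtain ⟨k, hk⟩ := d20
  have h3 : H.index ≤ 3 := by
    have : 0 < k := by
      have := Nat.card_pos (α := H)
      omega
    nlinarith [Nat.card_pos (α := H)]
  have := Nat.le_of_dvd (Nat.factorial_pos _) h
  have := Nat.factorial_le h3
  norm_num [Nat.factorial] at this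
  omega

/-- Conjugating by `A` reaches every involution of a coset `t A` with `|C_A(t)| = 4`. -/
theorem conj_of_same_coset {t t' : G} (ht : t ∈ d.N) (ht2 : t * t = 1) (ht'2 : t' * t' = 1)
    (hA : t * t' ∈ d.A) (h4 : Nat.card (d.A ⊓ centralizer ({t} : Set G) : Subgroup G) = 4) :
    ∃ a ∈ d.A, a * t * a⁻¹ = t' := by
  have htinv : t⁻¹ = t := inv_eq_of_mul_eq_one_right ht2
  have hc : ∀ a ∈ d.A, t * a * t ∈ d.A := fun a ha => by
    have := d.conj_mem ht ha
    rwa [htinv] at this
  let C : Subgroup G := d.A ⊓ centralizer ({t} : Set G)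
  let φ : d.A →* G := MonoidHom.mk' (fun a => t * a * t * a) fun a b => by
    have h1 := d.comm (hc _ b.2) a.2
    calc t * ((a : G) * b) * t * (a * b) = t * a * (t * t) * b * t * a * b := by
          rw [ht2]; group
      _ = t * a * t * ((t * b * t) * a) * b := by group
      _ = t * a * t * (a * (t * b * t)) * b := by rw [h1]
      _ = t * a * t * a * (t * b * t * b) := by group
  have hrange : φ.range ≤ C := by
    rintro _ ⟨a, rfl⟩
    refine ⟨mul_mem (hc _ a.2) a.2, mem_centralizer_singleton_iff.mpr ?_⟩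
    show t * a * t * a * t = t * (t * a * t * a)
    have h1 := d.comm (hc _ a.2) a.2
    calc t * a * t * a * t = a * (t * a * t) * t := by rw [h1]
      _ = a * t * a * (t * t) := by group
      _ = (t * t) * (a * t * a) := by rw [ht2, one_mul, mul_one]
      _ = t * (t * a * t * a) := by group
  have hker : φ.ker.map d.A.subtype ≤ C := by
    rintro _ ⟨a, ha, rfl⟩
    refine ⟨a.2, mem_centralizer_singleton_iff.mpr ?_⟩
    have ha' : t * (a : G) * t * a = 1 := ha
    have h1 : t * (a : G) * t = a := by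
      rw [eq_inv_of_mul_eq_one_left ha', inv_eq_of_mul_eq_one_right (d.sq a.2)]
    calc (a : G) * t = t * a * t * t := by rw [h1]
      _ = t * a := by rw [mul_assoc, ht2, mul_one]
  have hkc : Nat.card φ.ker ≤ 4 := by
    rw [← h4, ← Subgroup.card_map_of_injective d.A.subtype_injective]
    exact Nat.le_of_dvd Nat.card_pos (card_dvd_of_le hker)
  have hrc : φ.range = C := by
    refine Subgroup.eq_of_le_of_card_ge hrange ?_
    rw [h4]
    have := φ.ker.card_mul_index
    rw [index_ker, d.card_A] at this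
    nlinarith
  have htt' : t * t' ∈ C := by
    refine ⟨hA, mem_centralizer_singleton_iff.mpr ?_⟩
    have h1 : t * t' = t' * t := by
      have h2 := inv_eq_of_mul_eq_one_right (d.sq hA)
      rwa [mul_inv_rev, htinv, inv_eq_of_mul_eq_one_right ht'2, eq_comm] at h2
    calc t * t' * t = t' * (t * t) := by rw [h1, mul_assoc]
      _ = (t * t) * t' := by rw [ht2, one_mul, mul_one]
      _ = t * (t * t') := mul_assoc _ _ _
  rw [← hrc] at htt'
  obtain ⟨a, ha⟩ := htt'
  refine ⟨a, a.2, ?_⟩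
  have ha' : t * (a : G) * t * a = t * t' := ha
  rw [inv_eq_of_mul_eq_one_right (d.sq a.2)]
  calc (a : G) * t * a = t * (t * a * t * a) := by rw [← mul_assoc, ← mul_assoc, ← mul_assoc, ht2, one_mul]
    _ = t' := by rw [ha', ← mul_assoc, ht2, one_mul]

end Data

end Cfsg.Agent.H80.A8Type
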