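import Cfsg.Agent.H80.A8Type.Action
import Cfsg.Agent.H93.Group

/-! Coordinates on `A` and the three classes of involutions. -/

set_option autoImplicit false

namespace Cfsg.Agent.H80.A8Type

open Subgroup
open scoped IsMulCommutative

universe u

/-- The four vectors fixed by `v1`, up to complements. -/
def fix1 : Finset Vec :=
  {0, Pi.single 4 1, Pi.single 0 1 + Pi.single 1 1, Pi.single 2 1 + Pi.single 3 1}

/-- The elements of `Vset` as permutations of `Fin 5` move `0`. -/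
theorem weight_cases : ∀ v : Vec, (∀ i, v i = v 0) ∨ ∃ c : Vec, (c = 0 ∨ c = 1) ∧
    ((∃ i, v + c = Pi.single i 1) ∨ ∃ i j, i ≠ j ∧ v + c = Pi.single i 1 + Pi.single j 1) := by
  decide +kernel

theorem pair_ne_single : ∀ i j : Fin 5, i ≠ j →
    ¬ (∀ k, (Pi.single i 1 + Pi.single j 1 : Vec) k = (Pi.single i 1 + Pi.single j 1 : Vec) 0) := by
  decide +kernel

/-- Powers of `v tau` permute the involutions of `V` transitively. -/
theorem vset_cycle : ∀ v ∈ Vset, ∀ a ∈ Vset, a ≠ 1 → ∀ b ∈ Vset, b ≠ 1 →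
    ∃ j : Fin 3, (v * tau) ^ (j : ℕ) * a * ((v * tau) ^ (j : ℕ))⁻¹ = b := by decide +kernel

variable {G : Type u} [Group G] [Finite G]

/-- Coordinates: `e` identifies `A` with the deleted permutation module. -/
structure Coord (d : Data G) where
  e : Vec → G
  mem : ∀ v, e v ∈ d.A
  add : ∀ v w, e (v + w) = e v * e w
  surj : ∀ a ∈ d.A, ∃ v, e v = a
  eq_one : ∀ v, e v = 1 ↔ v = 0 ∨ v = 1
  act_e : ∀ (g : A5) (v : Vec), d.act g (e v) = e (v ∘ ⇑((g : Equiv.Perm (Fin 5))⁻¹))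

namespace Coord

variable {d : Data G} (c : Coord d)

theorem e_zero : c.e 0 = 1 := (c.eq_one 0).mpr (Or.inl rfl)

theorem e_eq_iff {v w : Vec} : c.e v = c.e w ↔ v + w = 0 ∨ v + w = 1 := by
  rw [← c.eq_one, c.add]
  constructor
  · intro h; rw [h, d.sq (c.mem w)]
  · intro h
    calc c.e v = c.e v * c.e w * c.e w := by rw [mul_assoc, d.sq (c.mem w), mul_one]
      _ = c.e w := by rw [h, one_mul]

theorem conj_e (x : ↥d.N) (v : Vec) :
    (x : G) * c.e v * (x : G)⁻¹ = c.e (v ∘ ⇑((d.π x : Equiv.Perm (Fin 5))⁻¹)) := by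
  rw [d.conj_eq_act x (c.mem v), c.act_e]

end Coord

namespace Data

variable (d : Data G)

/-- The elements of `A` fixed by `V`. -/
noncomputable def CV : Subgroup G where
  carrier := {a | a ∈ d.A ∧ ∀ v ∈ Vset, d.act v a = a}
  mul_mem' := fun {x y} hx hy => ⟨mul_mem hx.1 hy.1, fun v hv => by rw [d.act_mul, hx.2 v hv, hy.2 v hv]⟩
  one_mem' := ⟨one_mem _, fun v _ => d.act_one _⟩
  inv_mem' := fun {x} hx => by
    have : x⁻¹ = x := inv_eq_of_mul_eq_one_right (d.sq hx.1)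
    rw [this]; exact hx

theorem CV_le : d.CV ≤ d.A := fun _ h => h.1

/-- `S` has the orbit-stabiliser property: an element of `A` fixed by `S` is fixed by `V`. -/
theorem mem_CV_iff {a : G} : a ∈ d.CV ↔ a ∈ d.A ∧ ∀ s ∈ (d.S : Subgroup G), s * a = a * s := by
  constructor
  · refine fun h => ⟨h.1, fun s hs => ?_⟩
    have := h.2 _ ((d.image _).mp ⟨⟨s, d.S_le hs⟩, hs, rfl⟩)
    rw [← d.conj_eq_act _ h.1] at this
    exact mul_inv_eq_iff_eq_mul.mp this
  · refine fun h => ⟨h.1, fun v hv => ?_⟩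
    obtain ⟨s, hs, rfl⟩ := (d.image v).mpr hv
    rw [← d.conj_eq_act s h.1, mul_inv_eq_iff_eq_mul]
    exact h.2 _ hs

theorem one_lt_card_CV : 1 < Nat.card d.CV := by
  haveI := Fact.mk Nat.prime_two
  let f : (d.S : Subgroup G) →* MulAut d.A := (d.A.normalizerMonoidHom).comp
    (Subgroup.inclusion (fun x hx => d.mem_normalizer (d.S_le hx) :
      (d.S : Subgroup G) ≤ normalizer (d.A : Set G)))
  letI : MulAction (d.S : Subgroup G) d.A := MulAction.compHom d.A f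
  have hsm : ∀ (s : (d.S : Subgroup G)) (x : d.A), ((s • x : d.A) : G) = s * x * (s : G)⁻¹ :=
    fun s x => rfl
  have h := d.S.isPGroup'.card_modEq_card_fixedPoints d.A
  have hF : Nat.card ↑(MulAction.fixedPoints (d.S : Subgroup G) d.A) = Nat.card d.CV := by
    refine Nat.card_congr ⟨fun x => ⟨x.1.1, d.mem_CV_iff.mpr ⟨x.1.2, fun s hs => ?_⟩⟩,
      fun x => ⟨⟨x.1, d.CV_le x.2⟩, fun s => ?_⟩, fun x => rfl, fun x => rfl⟩
    · have := congrArg Subtype.val (x.2 ⟨s, hs⟩)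
      rw [hsm] at this
      exact mul_inv_eq_iff_eq_mul.mp this
    · refine Subtype.ext ((hsm s _).trans ?_)
      exact mul_inv_eq_iff_eq_mul.mpr ((d.mem_CV_iff.mp x.2).2 s s.2)
  rw [hF, d.card_A, Nat.ModEq] at h
  have := Nat.card_pos (α := d.CV)
  omega

theorem act_CV {g : A5} (hg : (g : Equiv.Perm (Fin 5)) 4 = 4) {a : G} (ha : a ∈ d.CV) :
    d.act g a ∈ d.CV := by
  refine ⟨d.act_mem g ha.1, fun v hv => ?_⟩
  rw [d.act_comp _ _ ha.1, show v * g = g * (g⁻¹ * v * g) by group, ← d.act_comp _ _ ha.1,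
    ha.2 _ (stab_normalises g hg v hv)]

theorem act_not_mem_CV {g : A5} (hg : (g : Equiv.Perm (Fin 5)) 4 ≠ 4) {a : G} (ha : a ∈ d.CV)
    (ha1 : a ≠ 1) : d.act g a ∉ d.CV := by
  intro h
  refine ha1 (d.act_eq_one (g := g) (d.eq_one_of_two_fours h.1 (g := g) hg h.2 fun v hv => ?_))
  rw [d.act_comp _ _ ha.1, show g * v * g⁻¹ * g = g * v by group, ← d.act_comp _ _ ha.1, ha.2 v hv]

/-- The elements fixed by some `V`-conjugate cover `A`, when `|C_A(V)| = 4`. -/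
theorem exists_act_CV (h4 : Nat.card d.CV = 4) {a : G} (ha : a ∈ d.A) (ha1 : a ≠ 1) :
    ∃ i : Fin 5, ∃ b ∈ d.CV, b ≠ 1 ∧ d.act (movers i) b = a := by
  classical
  haveI := Fintype.ofFinite G
  let f : Fin 5 × {b : G // b ∈ d.CV ∧ b ≠ 1} → {a : G // a ∈ d.A ∧ a ≠ 1} := fun p =>
    ⟨d.act (movers p.1) p.2.1, d.act_mem _ p.2.2.1.1, fun h => p.2.2.2 (d.act_eq_one h)⟩
  have hinj : Function.Injective f := by
    rintro ⟨i, b, hb⟩ ⟨j, b', hb'⟩ h
    have h' : d.act (movers i) b = d.act (movers j) b' := congrArg Subtype.val h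
    by_cases hij : i = j
    · subst hij
      have := d.act_injective _ h'
      simp [this]
    · exfalso
      have h2 : d.act ((movers j)⁻¹ * movers i) b = b' := by
        rw [← d.act_comp _ _ hb.1.1, h', d.act_comp _ _ hb'.1.1, inv_mul_cancel, d.act_id hb'.1.1]
      refine d.act_not_mem_CV ?_ hb.1 hb.2 (h2 ▸ hb'.1)
      rw [Subgroup.coe_mul, Subgroup.coe_inv, Equiv.Perm.mul_apply, movers_apply]
      intro h4'
      rw [Equiv.Perm.inv_eq_iff_eq] at h4'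
      exact hij (h4'.trans (movers_apply j))
  have hcount : ∀ H : Subgroup G, Nat.card {b : G // b ∈ H ∧ b ≠ 1} = Nat.card H - 1 := by
    intro H
    rw [Nat.card_congr (⟨fun b => ⟨⟨b.1, b.2.1⟩, fun h => b.2.2 (congrArg Subtype.val h)⟩,
      fun b => ⟨b.1.1, b.1.2, fun h => b.2 (Subtype.ext h)⟩, fun _ => rfl, fun _ => rfl⟩ :
      {b : G // b ∈ H ∧ b ≠ 1} ≃ {b : H // b ≠ 1})]
    simp only [Nat.card_eq_fintype_card, Fintype.card_subtype_compl, Fintype.card_subtype_eq]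
  have hsurj : Function.Surjective f :=
    (Finite.injective_iff_surjective_of_equiv
      (Finite.card_eq.mp (by
        rw [Nat.card_prod, hcount, hcount, h4, d.card_A, Nat.card_fin])).some).mp hinj
  obtain ⟨⟨i, b, hb⟩, h⟩ := hsurj ⟨a, ha, ha1⟩
  exact ⟨i, b, hb.1, hb.2, congrArg Subtype.val h⟩

/-- An element of `N` normalising `S` and inducing `tau` up to `V`. -/
theorem exists_normalizing : ∃ t : ↥d.N, ∃ v ∈ Vset, d.π t = v * tau ∧
    (t : G) ∈ normalizer ((d.S : Subgroup G) : Set G) := by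
  haveI := Fact.mk Nat.prime_two
  set x := d.lift tau with hx
  let M : Subgroup G := (Vgrp.comap d.π).map d.N.subtype
  have hSM : (d.S : Subgroup G) ≤ M := fun s hs =>
    ⟨⟨s, d.S_le hs⟩, (d.image _).mp ⟨_, hs, rfl⟩, rfl⟩
  have hTM : (d.S : Subgroup G).map (MulAut.conj (x : G)).toMonoidHom ≤ M := by
    rintro _ ⟨s, hs, rfl⟩
    refine ⟨x * ⟨s, d.S_le hs⟩ * x⁻¹, ?_, rfl⟩
    show d.π _ ∈ Vset
    rw [map_mul, map_mul, map_inv, hx, π_lift]
    exact (tau_normalises _ ((d.image _).mp ⟨⟨s, d.S_le hs⟩, hs, rfl⟩)).1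
  have hmax : ∀ T ≤ M, IsPGroup 2 T → Nat.card T ≤ Nat.card (d.S : Subgroup G) := by
    intro T _ hT
    obtain ⟨R, hR⟩ := hT.exists_le_sylow
    calc Nat.card T ≤ Nat.card R := Nat.card_le_card_of_injective _ (inclusion_injective hR)
      _ = _ := by rw [R.card_eq_multiplicity, d.S.card_eq_multiplicity]
  obtain ⟨m, hm, hle⟩ := H93.exists_conj_le hSM d.S.isPGroup' hmax hTM (d.S.isPGroup'.map _)
  obtain ⟨m, hmV, rfl⟩ := hm
  refine ⟨m * x, d.π m, hmV, by rw [map_mul, hx, π_lift], ?_⟩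
  apply Subgroup.mem_normalizer_fintype
  intro s hs
  refine hle ⟨(x : G) * s * (x : G)⁻¹, ⟨s, hs, rfl⟩, ?_⟩
  simp [mul_assoc]

end Data

/-- All involutions of `S` outside `A` are conjugate in `N`. -/
theorem Data.outside_conj (d : Data G)
    (h4 : ∀ v ∈ Vset, v ≠ 1 → ∀ t : ↥d.N, d.π t = v →
      Nat.card (d.A ⊓ centralizer ({(t : G)} : Set G) : Subgroup G) = 4)
    {t t' : G} (ht : t ∈ (d.S : Subgroup G)) (ht2 : t * t = 1) (htA : t ∉ d.A)
    (ht' : t' ∈ (d.S : Subgroup G)) (ht'2 : t' * t' = 1) (ht'A : t' ∉ d.A) :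
    ∃ n ∈ d.N, n * t * n⁻¹ = t' := by
  obtain ⟨k, v, hv, hk, hkS⟩ := d.exists_normalizing
  -- reach the coset of `t'` by a power of `k`
  have hV : d.π ⟨t, d.S_le ht⟩ ∈ Vset := (d.image _).mp ⟨_, ht, rfl⟩
  have hV' : d.π ⟨t', d.S_le ht'⟩ ∈ Vset := (d.image _).mp ⟨_, ht', rfl⟩
  have h1 : d.π ⟨t, d.S_le ht⟩ ≠ 1 := fun h => htA (d.mem_A_of_π ht h)
  have h1' : d.π ⟨t', d.S_le ht'⟩ ≠ 1 := fun h => ht'A (d.mem_A_of_π ht' h)
  obtain ⟨j, hj⟩ := vset_cycle v hv _ hV h1 _ hV' h1'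
  set x : ↥d.N := k ^ (j : ℕ)
  have hxS : (x : G) ∈ normalizer ((d.S : Subgroup G) : Set G) := by
    rw [Subgroup.coe_pow]; exact pow_mem hkS _
  set t'' : G := (x : G) * t * (x : G)⁻¹ with ht''
  have ht''S : t'' ∈ (d.S : Subgroup G) := (mem_normalizer_iff.mp hxS t).mp ht
  have ht''2 : t'' * t'' = 1 := by
    calc t'' * t'' = (x : G) * (t * t) * (x : G)⁻¹ := by rw [ht'']; group
      _ = 1 := by rw [ht2, mul_one, mul_inv_cancel]
  have hπ'' : d.π ⟨t'', d.S_le ht''S⟩ = d.π ⟨t', d.S_le ht'⟩ := by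
    have e : (⟨t'', d.S_le ht''S⟩ : ↥d.N) = x * ⟨t, d.S_le ht⟩ * x⁻¹ := rfl
    rw [e, map_mul, map_mul, map_inv, map_pow, hk]
    exact hj
  have hA : t'' * t' ∈ d.A := by
    refine d.mem_A_of_π (s := ⟨t'', d.S_le ht''S⟩ * ⟨t', d.S_le ht'⟩) (mul_mem ht''S ht') ?_
    rw [map_mul, hπ'', ← map_mul]
    convert d.π.map_one
    exact Subtype.ext ht'2
  obtain ⟨a, ha, hat⟩ := d.conj_of_same_coset (d.S_le ht''S) ht''2 ht'2 hA
    (h4 _ ((d.image _).mp ⟨_, ht''S, rfl⟩) (hπ'' ▸ h1') ⟨t'', _⟩ rfl)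
  refine ⟨a * x, mul_mem (d.A_le_N ha) x.2, ?_⟩
  rw [← hat, ht'']
  group

end Cfsg.Agent.H80.A8Type
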