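import Cfsg.Agent.H80.A8Type.Five
import Cfsg.Agent.H74.CoreGeneration
import Cfsg.Prelude.Def_Transfer

/-! The data of an elementary abelian subgroup `A` of order `16` with `N(A) / A O(N(A)) ≅ A₅`. -/

set_option autoImplicit false

namespace Cfsg.Agent.H80.A8Type

universe u

/-- `A`, a Sylow `2`-subgroup `S` of `G` in `N = N(A)` over the four-group `Vgrp`, and `π : N → A₅`. -/
structure Data (G : Type u) [Group G] [Finite G] where
  A : Subgroup G
  N : Subgroup G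
  S : Sylow 2 G
  π : ↥N →* A5
  N_eq : N = Subgroup.normalizer (A : Set G)
  elem : Cfsg.IsElementaryAbelian 2 A
  card_A : Nat.card A = 16
  A_le : A ≤ (S : Subgroup G)
  S_le : (S : Subgroup G) ≤ N
  π_surj : Function.Surjective π
  ker_le : ∀ x : ↥N, π x = 1 → (x : G) ∈ A ⊔ H74.oddCoreIn N
  le_ker : ∀ x : ↥N, (x : G) ∈ A ⊔ H74.oddCoreIn N → π x = 1
  cent : ∀ x : ↥N, ((x : G) ∈ Subgroup.centralizer (A : Set G) ↔ π x = 1)
  image : ∀ v : A5, (∃ s : ↥N, (s : G) ∈ (S : Subgroup G) ∧ π s = v) ↔ v ∈ Vset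

end Cfsg.Agent.H80.A8Type
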