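import Mathlib

/-! A `2`-subgroup of `A₈` with two distinct non-trivial commutators `[x, y]`, `[x, y']`. -/

set_option autoImplicit false

namespace Cfsg.Agent.H80.A8Type

open Equiv

abbrev A8 : Type := ↥(alternatingGroup (Fin 8))

def qx : A8 := ⟨swap 0 1 * swap 4 5, Perm.mem_alternatingGroup.mpr (by decide +kernel)⟩
def qy : A8 := ⟨swap 0 2 * swap 1 3, Perm.mem_alternatingGroup.mpr (by decide +kernel)⟩
def qy' : A8 := ⟨swap 4 6 * swap 5 7, Perm.mem_alternatingGroup.mpr (by decide +kernel)⟩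
def qc : A8 := ⟨swap 0 1 * swap 2 3, Perm.mem_alternatingGroup.mpr (by decide +kernel)⟩
def qc' : A8 := ⟨swap 4 5 * swap 6 7, Perm.mem_alternatingGroup.mpr (by decide +kernel)⟩

theorem qcomm : qx * qy ≠ qy * qx ∧ qx * qy' ≠ qy' * qx ∧
    qx * qy * qx⁻¹ * qy⁻¹ ≠ qx * qy' * qx⁻¹ * qy'⁻¹ := by
  refine ⟨?_, ?_, ?_⟩ <;> intro h <;> replace h := congrArg Subtype.val h <;>
    simp only [qx, qy, qy', Subgroup.coe_mul, InvMemClass.coe_inv] at h <;>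
    revert h <;> decide +kernel

theorem qrel : qc * qc = 1 ∧ qc' * qc' = 1 ∧ qy * qy = 1 ∧ qy' * qy' = 1 ∧ qx * qx = 1 ∧
    qc' * qc = qc * qc' ∧ qy * qc = qc * qy ∧ qy * qc' = qc' * qy ∧ qy' * qc = qc * qy' ∧
    qy' * qc' = qc' * qy' ∧ qy' * qy = qy * qy' ∧ qx * qc = qc * qx ∧ qx * qc' = qc' * qx ∧
    qx * qy * qx = qy * qc ∧ qx * qy' * qx = qy' * qc' := by
  refine ⟨?_, ?_, ?_, ?_, ?_, ?_, ?_, ?_, ?_, ?_, ?_, ?_, ?_, ?_, ?_⟩ <;> apply Subtype.ext <;>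
    simp only [qx, qy, qy', qc, qc', Subgroup.coe_mul, OneMemClass.coe_one] <;> decide +kernel

theorem isPGroup_step {G : Type*} [Group G] {H : Subgroup G} (hH : IsPGroup 2 H) {g : G}
    (hg : g * g = 1) (hn : g ∈ Subgroup.normalizer (H : Set G)) :
    IsPGroup 2 (H ⊔ Subgroup.zpowers g : Subgroup G) := by
  refine IsPGroup.to_sup_of_normal_left' hH ?_ (Subgroup.zpowers_le.mpr hn)
  intro x; revert x
  rintro ⟨_, k, rfl⟩
  exact ⟨1, Subtype.ext (show (g ^ k) ^ (2 ^ 1) = 1 by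
    rw [pow_one, ← zpow_natCast (g ^ k), ← zpow_mul, mul_comm, zpow_mul, zpow_natCast, pow_two, hg,
      one_zpow])⟩

end Cfsg.Agent.H80.A8Type
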