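import Mathlib

/-! The finite facts about `A₅`, its deleted permutation module and a `2`-subgroup of `A₈`. -/

set_option autoImplicit false

namespace Cfsg.Agent.H80.A8Type

open Equiv

abbrev A5 : Type := ↥(alternatingGroup (Fin 5))

abbrev Vec : Type := Fin 5 → ZMod 2

/-- `(01)(23)` -/
def v1 : A5 := ⟨swap 0 1 * swap 2 3, Perm.mem_alternatingGroup.mpr (by decide +kernel)⟩
/-- `(02)(13)` -/
def v2 : A5 := ⟨swap 0 2 * swap 1 3, Perm.mem_alternatingGroup.mpr (by decide +kernel)⟩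
/-- `(03)(12)` -/
def v3 : A5 := ⟨swap 0 3 * swap 1 2, Perm.mem_alternatingGroup.mpr (by decide +kernel)⟩
/-- `(012)` -/
def tau : A5 := ⟨swap 0 1 * swap 1 2, Perm.mem_alternatingGroup.mpr (by decide +kernel)⟩

def Vset : Finset A5 := {1, v1, v2, v3}

/-- The four-group fixing `4`. -/
def Vgrp : Subgroup A5 where
  carrier := {g | g ∈ Vset}
  mul_mem' := by
    intro a b ha hb
    exact (by decide +kernel : ∀ a ∈ Vset, ∀ b ∈ Vset, a * b ∈ Vset) a ha b hb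
  one_mem' := by decide +kernel
  inv_mem' := by
    intro a ha
    exact (by decide +kernel : ∀ a ∈ Vset, a⁻¹ ∈ Vset) a ha

theorem mem_Vgrp {g : A5} : g ∈ Vgrp ↔ g ∈ Vset := Iff.rfl

theorem card_Vgrp : Nat.card Vgrp = 4 := by
  rw [Nat.card_congr (Equiv.subtypeEquivRight (fun g => mem_Vgrp) : Vgrp ≃ {g // g ∈ Vset}),
    Nat.card_eq_fintype_card, Fintype.card_coe]
  decide +kernel

theorem index_Vgrp : Vgrp.index = 15 := by
  have h := Vgrp.card_mul_index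
  rw [card_Vgrp, nat_card_alternatingGroup, Nat.card_fin] at h
  norm_num [Nat.factorial] at h
  omega

theorem stab_eq : ∀ g : A5, (g : Perm (Fin 5)) 4 = 4 →
    g ∈ Vset ∨ g * tau ∈ Vset ∨ g * tau * tau ∈ Vset := by decide +kernel

theorem tau_normalises : ∀ g ∈ Vset, tau * g * tau⁻¹ ∈ Vset ∧ tau⁻¹ * g * tau ∈ Vset := by decide +kernel

theorem stab_normalises : ∀ g : A5, (g : Perm (Fin 5)) 4 = 4 → ∀ v ∈ Vset, g⁻¹ * v * g ∈ Vset := by
  decide +kernel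

theorem exists_move : ∀ i : Fin 5, ∃ g : A5, (g : Perm (Fin 5)) 4 = i := by decide +kernel

theorem fix_four : ∀ g : A5, ∀ v ∈ Vset, v ≠ 1 → (v : Perm (Fin 5)) ((g : Perm (Fin 5)) 4) =
    (g : Perm (Fin 5)) 4 → (g : Perm (Fin 5)) 4 = 4 := by decide +kernel

theorem four_cases : ∀ a ∈ Vset, ∀ b ∈ Vset, ∀ c ∈ Vset, a ≠ 1 → b ≠ 1 → a ≠ b → c ≠ 1 → c ≠ a →
    c = b ∨ c = a * b := by decide +kernel

theorem tau_v1 : tau * v1 * tau⁻¹ ∈ Vset ∧ (tau * tau) * v1 * (tau * tau)⁻¹ ∈ Vset := by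
  decide +kernel

theorem tau_cycle : ∀ v ∈ Vset, v ≠ 1 →
    v = v1 ∨ v = tau * v1 * tau⁻¹ ∨ v = (tau * tau) * v1 * (tau * tau)⁻¹ := by decide +kernel

def movers : Fin 5 → A5 :=
  ![⟨swap 0 4 * swap 1 2, Perm.mem_alternatingGroup.mpr (by decide +kernel)⟩,
    ⟨swap 1 4 * swap 0 2, Perm.mem_alternatingGroup.mpr (by decide +kernel)⟩,
    ⟨swap 2 4 * swap 0 1, Perm.mem_alternatingGroup.mpr (by decide +kernel)⟩,
    ⟨swap 3 4 * swap 0 1, Perm.mem_alternatingGroup.mpr (by decide +kernel)⟩, 1]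

theorem movers_apply : ∀ i : Fin 5, (movers i : Perm (Fin 5)) 4 = i := by decide +kernel

/-- With a conjugate of `V` outside its normaliser, `V` generates an element of order five. -/
theorem five_mem : ∀ i : Fin 5, i ≠ 4 → ∃ v ∈ Vset, ∃ w ∈ Vset,
    (v * (movers i * w * (movers i)⁻¹)) ^ 5 = 1 ∧ v * (movers i * w * (movers i)⁻¹) ≠ 1 := by
  decide +kernel

/-- Three-cycles `(0 1 2)`, `(0 1 3)`, `(0 1 4)`, `(2 3 4)`, `(0 2 3)`. -/
def cyc : Fin 5 → A5 :=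
  ![⟨swap 0 1 * swap 1 2, Perm.mem_alternatingGroup.mpr (by decide +kernel)⟩,
    ⟨swap 0 1 * swap 1 3, Perm.mem_alternatingGroup.mpr (by decide +kernel)⟩,
    ⟨swap 0 1 * swap 1 4, Perm.mem_alternatingGroup.mpr (by decide +kernel)⟩,
    ⟨swap 2 3 * swap 3 4, Perm.mem_alternatingGroup.mpr (by decide +kernel)⟩,
    ⟨swap 0 2 * swap 2 3, Perm.mem_alternatingGroup.mpr (by decide +kernel)⟩]

/-- Outside the constants, some three-cycle difference is a pair. -/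
theorem exists_pair : ∀ v : Vec, ¬ (∀ i, v i = v 0) → ∃ i j : Fin 5, i ≠ j ∧ ∃ c : Fin 5,
    v + v ∘ (cyc c : Perm (Fin 5)) = Pi.single i 1 + Pi.single j 1 := by decide +kernel

theorem two_transitive : ∀ i j k l : Fin 5, i ≠ j → k ≠ l →
    ∃ σ : A5, ((σ : Perm (Fin 5)) i = k ∧ (σ : Perm (Fin 5)) j = l) := by decide +kernel

/-- The fixed vectors of an involution of `V`. -/
theorem fixed_v1 : ∀ v : Vec, (v + v ∘ (v1 : Perm (Fin 5)) = 0 ∨ v + v ∘ (v1 : Perm (Fin 5)) = 1) →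
    v ∈ ({0, 1, Pi.single 4 1, 1 + Pi.single 4 1, Pi.single 0 1 + Pi.single 1 1,
      1 + Pi.single 0 1 + Pi.single 1 1, Pi.single 2 1 + Pi.single 3 1,
      1 + Pi.single 2 1 + Pi.single 3 1} : Finset Vec) := by decide +kernel

end Cfsg.Agent.H80.A8Type
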